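import Cfsg.Agent.LV.Cl.CertB8
import Cfsg.Agent.LV.Cl.CertB9
import Cfsg.Agent.LV.Cl.CertD9
import Cfsg.Agent.LV.Cl.CertD10

/-!
# LV, classical groups: `BoxHalf` and `BoxGood` (helper58)
-/

set_option autoImplicit false
set_option linter.dupNamespace false

namespace Cfsg.Agent.LV.Cl

namespace Cert

theorem both_zero (b : Bool) : Both b 0 false := by
  cases b <;> exact both_of (bl := [⟨[1072694271], [0], [[1]], [[4]], [[1]]⟩]) (dg := []) (bads := []) (W := []) tab0
    (allIn_zero _) (all2_nil _) valOK_nil (by decide +kernel) (by decide +kernel) (by decide +kernel)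

theorem both_b (k : ℕ) (hk : k ≤ 9) : Both true k false := by
  interval_cases k
  exacts [both_zero true, both_b1, both_b2, both_b3, both_b4, both_b5, both_b6, both_b7, both_b8, both_b9]

theorem both_p (k : ℕ) (hk : k ≤ 10) : Both false k false := by
  interval_cases k
  exacts [both_zero false, both_p1, both_p2, both_p3, both_p4, both_p5, both_p6, both_p7, both_p8, both_p9, both_p10]

theorem both_m (k : ℕ) (h1 : 1 ≤ k) (hk : k ≤ 10) : Both false k true := by
  interval_cases k
  exacts [both_m1, both_m2, both_m3, both_m4, both_m5, both_m6, both_m7, both_m8, both_m9, both_m10]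

theorem both (b : Bool) (k : ℕ) (ε : ℤˣ) (a : Bip → ℂ) (hk : k ≤ (if b then 9 else 10)) (h0 : b = false → k = 0 → ε = 1)
    (hS : Sh b k ε a) : HalfC b k ε a ∧ ∀ d, Rg d b k ε → GoodC d b k ε a := by
  cases b
  · rcases Int.units_eq_one_or ε with rfl | rfl
    · exact both_p k hk 1 a (fun _ => rfl) hS
    · exact both_m k (Nat.pos_of_ne_zero fun h => absurd (h0 rfl h) (by decide)) hk (-1) a (fun _ => rfl) hS
  · exact both_b k hk ε a (fun h => absurd h (by decide)) hS

end Cert

theorem boxHalf : BoxHalf := fun b k ε a hk h0 hS => (Cert.both b k ε a hk h0 hS).1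

theorem boxGood : BoxGood := fun d b k ε a hd h0 hS =>
  (Cert.both b k ε a (by cases b <;> simp [Rg] at hd ⊢ <;> omega) h0 hS).2 d hd

end Cfsg.Agent.LV.Cl
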