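import Cfsg.Agent.LV.Cl.Par

/-!
# LV, classical groups: cycles and conjugacy of signed permutations (helper68)

`boxConj : BoxConj`.
-/

set_option autoImplicit false
set_option linter.unusedSectionVars false
set_option linter.dupNamespace false

namespace Cfsg.Agent.LV.Cl.Cj

open Equiv Finset Function

variable {n : ℕ} {π π' : Perm (Fin n)} {x y : Fin n} {g g' : SG n} {T T' : Finset (Fin n)} {L : List (ℕ × ℤˣ)}

example := @HasTy.eq_def

theorem hasTy_nil : HasTy g T [] ↔ T = ∅ := by simp only [HasTy]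

theorem hasTy_cons {c : ℕ × ℤˣ} : HasTy g T (c :: L) ↔
    ∃ x ∈ T, cyc g.π x ⊆ T ∧ #(cyc g.π x) = c.1 ∧ ∏ j ∈ cyc g.π x, g.s j = c.2 ∧ HasTy g (T \ cyc g.π x) L := by
  simp only [HasTy]

theorem inv_self (π : Perm (Fin n)) (x : Fin n) : π⁻¹ (π x) = x := π.symm_apply_apply x

theorem self_inv (π : Perm (Fin n)) (x : Fin n) : π (π⁻¹ x) = x := π.apply_symm_apply x

theorem mem_cyc : y ∈ cyc π x ↔ π.SameCycle x y := by simp [cyc]

theorem mem_cyc' : y ∈ cyc π x ↔ ∃ i : ℕ, (π ^ i) x = y :=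
  mem_cyc.trans ⟨fun h => h.exists_pow_eq'.imp fun _ e => e.2, fun ⟨i, h⟩ => ⟨i, by rw [zpow_natCast, h]⟩⟩

theorem self_mem (π : Perm (Fin n)) (x : Fin n) : x ∈ cyc π x := mem_cyc.2 (Perm.SameCycle.refl _ _)

theorem pow_mem_cyc (π : Perm (Fin n)) (x : Fin n) (i : ℕ) : (π ^ i) x ∈ cyc π x := mem_cyc'.2 ⟨i, rfl⟩

theorem cyc_eq (h : y ∈ cyc π x) : cyc π y = cyc π x := by
  ext z
  rw [mem_cyc] at h ⊢
  rw [mem_cyc]
  exact ⟨h.trans, h.symm.trans⟩

theorem stab_cyc (π : Perm (Fin n)) (x : Fin n) : Stab (cyc π x) π := fun y => by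
  rw [mem_cyc, mem_cyc, Perm.sameCycle_apply_right]

theorem stab_sdiff (h : Stab T π) (h' : Stab T' π) : Stab (T \ T') π := fun y => by
  rw [mem_sdiff, mem_sdiff, h y, h' y]

theorem stab_pow (h : Stab T π) (i : ℕ) : Stab T (π ^ i) := by
  induction i with
  | zero => exact fun _ => Iff.rfl
  | succ i ih => exact fun y => by rw [pow_succ, Perm.mul_apply, ih, h]

theorem stab_inv (h : Stab T π) : Stab T π⁻¹ := fun y => by rw [← h, self_inv]

theorem stab_on (h : g ∈ On T) : Stab T g.π := fun y => by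
  refine ⟨fun e => by_contra fun e' => e' ((h y e').1 ▸ e), fun e => by_contra fun e' => e' ?_⟩
  rwa [g.π.injective (h _ e').1]

theorem cyc_subset (h : Stab T π) (hx : x ∈ T) : cyc π x ⊆ T := fun y hy => by
  obtain ⟨i, rfl⟩ := mem_cyc'.1 hy
  exact (stab_pow h i x).2 hx

theorem cyc_congr (h : ∀ y ∈ cyc π x, π' y = π y) : cyc π' x = cyc π x := by
  have h1 : ∀ i : ℕ, (π' ^ i) x = (π ^ i) x := fun i => by
    induction i with
    | zero => rfl
    | succ i ih => rw [pow_succ', pow_succ', Perm.mul_apply, Perm.mul_apply, ih, h _ (pow_mem_cyc π x i)]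
  ext y
  simp only [mem_cyc', h1]

theorem map_stab (h : Stab T π) : T.map π.toEmbedding = T := by
  ext y
  rw [mem_map_equiv]
  exact stab_inv h y

theorem prod_stab (h : Stab T π) {A : Type*} [CommMonoid A] (f : Fin n → A) : ∏ j ∈ T, f (π j) = ∏ j ∈ T, f j := by
  conv_rhs => rw [← map_stab h, prod_map]
  rfl

/-! ### the cycle as a list of powers -/

theorem per_pos (π : Perm (Fin n)) (x : Fin n) : 0 < minimalPeriod π x :=
  IsPeriodicPt.minimalPeriod_pos (orderOf_pos π) (by rw [IsPeriodicPt, IsFixedPt, ← Perm.coe_pow, pow_orderOf_eq_one]; rfl)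

theorem cyc_image (π : Perm (Fin n)) (x : Fin n) : cyc π x = (range (minimalPeriod π x)).image fun i => (π ^ i) x := by
  ext y
  rw [mem_cyc', mem_image]
  refine ⟨fun ⟨i, h⟩ => ⟨i % minimalPeriod π x, mem_range.2 (Nat.mod_lt _ (per_pos π x)), ?_⟩, fun ⟨i, _, h⟩ => ⟨i, h⟩⟩
  rw [← h, Perm.coe_pow, Perm.coe_pow, iterate_mod_minimalPeriod_eq]

theorem injOn_pow (π : Perm (Fin n)) (x : Fin n) : Set.InjOn (fun i => (π ^ i) x) (range (minimalPeriod π x)) :=
  fun i hi j hj h => iterate_injOn_Iio_minimalPeriod (f := π) (x := x) (mem_range.1 hi) (mem_range.1 hj)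
    (by simpa only [Perm.coe_pow] using h)

theorem card_cyc (π : Perm (Fin n)) (x : Fin n) : #(cyc π x) = minimalPeriod π x := by
  rw [cyc_image, card_image_of_injOn (injOn_pow π x), card_range]

theorem prod_cyc (π : Perm (Fin n)) (x : Fin n) {A : Type*} [CommMonoid A] (f : Fin n → A) :
    ∏ j ∈ cyc π x, f j = ∏ i ∈ range #(cyc π x), f ((π ^ i) x) := by
  rw [card_cyc, cyc_image, prod_image (injOn_pow π x)]

theorem pow_card (π : Perm (Fin n)) (x : Fin n) : (π ^ #(cyc π x)) x = x := by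
  rw [card_cyc, Perm.coe_pow, iterate_minimalPeriod]

theorem pow_eq_iff {i j : ℕ} : (π ^ i) x = (π ^ j) x ↔ i ≡ j [MOD #(cyc π x)] := by
  rw [card_cyc, Perm.coe_pow, Perm.coe_pow, ← iterate_mod_minimalPeriod_eq (n := i), ← iterate_mod_minimalPeriod_eq (n := j),
    iterate_eq_iterate_iff_of_lt_minimalPeriod (Nat.mod_lt _ (per_pos π x)) (Nat.mod_lt _ (per_pos π x))]
  rfl

theorem pow_π (g : SG n) (i : ℕ) : (g ^ i).π = g.π ^ i := by
  induction i with
  | zero => rfl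
  | succ i ih => rw [pow_succ, pow_succ, mul_π, ih]

theorem pow_s (g : SG n) (i : ℕ) (x : Fin n) : (g ^ i).s x = ∏ t ∈ range i, g.s ((g.π ^ t) x) := by
  induction i with
  | zero => rfl
  | succ i ih => rw [pow_succ', mul_s, ih, pow_π, prod_range_succ, mul_comm]

theorem pow_s_add (g : SG n) (i : ℕ) (x : Fin n) :
    (g ^ (i + #(cyc g.π x))).s x = (g ^ i).s x * ∏ j ∈ cyc g.π x, g.s j := by
  rw [pow_add, mul_s, pow_π, pow_card, pow_s g #_, ← prod_cyc]

/-! ### the weight -/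

theorem wt_split (h : cyc g.π x ⊆ T) : wt g T =
    Multiset.replicate #(cyc g.π x) (#(cyc g.π x), ∏ j ∈ cyc g.π x, g.s j) + wt g (T \ cyc g.π x) := by
  rw [wt, wt, sdiff_val]
  conv_lhs => rw [← add_tsub_cancel_of_le (val_le_iff.2 h), Multiset.map_add]
  congr 1
  rw [Multiset.eq_replicate]
  refine ⟨Multiset.card_map _ _, fun b hb => ?_⟩
  obtain ⟨y, hy, rfl⟩ := Multiset.mem_map.1 hb
  rw [cyc_eq hy]

theorem of_hasTy (h : HasTy g T L) : wt g T = (L.map fun c => Multiset.replicate c.1 c).sum ∧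
    ∏ j ∈ T, g.s j = (L.map fun c => c.2).prod ∧ #T = (L.map fun c => c.1).sum := by
  induction L generalizing T with
  | nil =>
    rw [hasTy_nil.1 h]
    exact ⟨rfl, rfl, rfl⟩
  | cons c L ih =>
    obtain ⟨x, -, h1, h2, h3, h4⟩ := hasTy_cons.1 h
    obtain ⟨e1, e2, e3⟩ := ih h4
    simp only [List.map_cons, List.sum_cons, List.prod_cons]
    refine ⟨by rw [wt_split h1, h2, h3, e1], by rw [← prod_sdiff h1, e2, h3, mul_comm], ?_⟩
    rw [← card_sdiff_add_card_eq_card h1, e3, h2, add_comm]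

theorem stab_of_hasTy (h : HasTy g T L) : Stab T g.π := by
  induction L generalizing T with
  | nil =>
    rw [hasTy_nil.1 h]
    exact fun _ => by simp
  | cons c L ih =>
    obtain ⟨x, -, h1, -, -, h4⟩ := hasTy_cons.1 h
    intro y
    rw [← sdiff_union_of_subset h1, mem_union, mem_union, ih h4 y, stab_cyc]

theorem hasTy_congr (h : HasTy g T L) (e : ∀ j ∈ T, g'.π j = g.π j ∧ g'.s j = g.s j) : HasTy g' T L := by
  induction L generalizing T with
  | nil => exact hasTy_nil.2 (hasTy_nil.1 h)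
  | cons c L ih =>
    obtain ⟨x, hx, h1, h2, h3, h4⟩ := hasTy_cons.1 h
    have h5 : cyc g'.π x = cyc g.π x := cyc_congr fun y hy => (e y (h1 hy)).1
    refine hasTy_cons.2 ⟨x, hx, ?_⟩
    rw [h5]
    exact ⟨h1, h2, (prod_congr rfl fun y hy => (e y (h1 hy)).2).trans h3, ih h4 fun j hj => e j (mem_sdiff.1 hj).1⟩

theorem wt_congr (h : Stab T g.π) (e : ∀ j ∈ T, g'.π j = g.π j ∧ g'.s j = g.s j) : wt g' T = wt g T :=
  Multiset.map_congr rfl fun x hx => by
    have h1 := cyc_subset h hx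
    rw [cyc_congr fun y hy => (e y (h1 hy)).1, prod_congr rfl fun y hy => (e y (h1 hy)).2]

theorem exists_hasTy (h : Stab T g.π) : ∃ L, HasTy g T L := by
  induction T using Finset.strongInduction with
  | H T ih =>
    rcases T.eq_empty_or_nonempty with e | ⟨x, hx⟩
    · exact ⟨[], hasTy_nil.2 e⟩
    · obtain ⟨L, hL⟩ := ih _ (sdiff_ssubset (cyc_subset h hx) ⟨x, self_mem _ _⟩) (stab_sdiff h (stab_cyc _ _))
      exact ⟨(_, _) :: L, hasTy_cons.2 ⟨x, hx, cyc_subset h hx, rfl, rfl, hL⟩⟩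

/-! ### conjugation -/

theorem conj_π (h g : SG n) (j : Fin n) : (h * g * h⁻¹).π (h.π j) = h.π (g.π j) := by simp

theorem conj_s (h g : SG n) (j : Fin n) : (h * g * h⁻¹).s (h.π j) = h.s (g.π j) * g.s j * h.s j := by simp

theorem cyc_conj (h g : SG n) (x : Fin n) : cyc (h * g * h⁻¹).π (h.π x) = (cyc g.π x).map h.π.toEmbedding := by
  ext y
  rw [mem_map_equiv, mem_cyc, mem_cyc, mul_π, mul_π, inv_π, Perm.sameCycle_conj, inv_self]
  rfl

theorem prod_conj (h : SG n) (hT : Stab T g.π) : ∏ j ∈ T.map h.π.toEmbedding, (h * g * h⁻¹).s j = ∏ j ∈ T, g.s j := by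
  rw [prod_map]
  refine (prod_congr rfl fun j _ => conj_s h g j).trans ?_
  rw [prod_mul_distrib, prod_mul_distrib, prod_stab hT, mul_right_comm,
    Int.units_mul_self, one_mul]

theorem wt_conj (h g : SG n) (T : Finset (Fin n)) : wt (h * g * h⁻¹) (T.map h.π.toEmbedding) = wt g T := by
  rw [wt, wt, map_val, Multiset.map_map]
  refine Multiset.map_congr rfl fun x _ => ?_
  show (#(cyc (h * g * h⁻¹).π (h.π x)), ∏ j ∈ cyc (h * g * h⁻¹).π (h.π x), (h * g * h⁻¹).s j) = _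
  rw [cyc_conj, card_map, prod_conj h (stab_cyc _ _)]

theorem hasTy_conj (h : SG n) (e : HasTy g T L) : HasTy (h * g * h⁻¹) (T.map h.π.toEmbedding) L := by
  induction L generalizing T with
  | nil => exact hasTy_nil.2 (by rw [hasTy_nil.1 e, map_empty])
  | cons c L ih =>
    obtain ⟨x, hx, h1, h2, h3, h4⟩ := hasTy_cons.1 e
    refine hasTy_cons.2 ⟨h.π x, mem_map_of_mem _ hx, ?_⟩
    rw [cyc_conj, card_map, prod_conj h (stab_cyc _ _), ← Finset.map_sdiff]
    exact ⟨map_subset_map.2 h1, h2, h3, ih h4⟩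

/-- two cycles with the same length and the same sign -/
theorem exists_cyc {x x' : Fin n} (h1 : #(cyc g.π x) = #(cyc g'.π x'))
    (h2 : ∏ j ∈ cyc g.π x, g.s j = ∏ j ∈ cyc g'.π x', g'.s j) :
    ∃ (φ : Fin n → Fin n) (σ : Fin n → ℤˣ), Set.InjOn φ (cyc g.π x) ∧ ∀ j ∈ cyc g.π x, φ j ∈ cyc g'.π x' ∧
      φ (g.π j) = g'.π (φ j) ∧ σ (g.π j) * g.s j * σ j = g'.s (φ j) := by
  have h3 : ∀ y, ∃ i : ℕ, y ∈ cyc g.π x → (g.π ^ i) x = y := fun y => by
    by_cases hy : y ∈ cyc g.π x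
    · exact (mem_cyc'.1 hy).imp fun _ e _ => e
    · exact ⟨0, fun e => absurd e hy⟩
  choose lg hlg using h3
  have h4 : Periodic (fun i => (g ^ i).s x * (g' ^ i).s x') #(cyc g.π x) := fun i => by
    beta_reduce
    rw [pow_s_add, h1, pow_s_add, h2, mul_mul_mul_comm, Int.units_mul_self, mul_one]
  have h5 : ∀ j ∈ cyc g.π x, lg (g.π j) ≡ lg j + 1 [MOD #(cyc g.π x)] := fun j hj => by
    rw [← pow_eq_iff, hlg _ ((stab_cyc _ _ j).2 hj), pow_succ', Perm.mul_apply, hlg j hj]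
  refine ⟨fun y => (g'.π ^ lg y) x', fun y => (g ^ lg y).s x * (g' ^ lg y).s x', fun a ha b hb e => ?_,
    fun j hj => ⟨pow_mem_cyc _ _ _, ?_, ?_⟩⟩
  · rw [← hlg a ha, ← hlg b hb, pow_eq_iff, h1, ← pow_eq_iff]
    exact e
  · rw [← Perm.mul_apply, ← pow_succ', pow_eq_iff, ← h1]
    exact h5 j hj
  · have h6 := h4.map_mod_nat (lg (g.π j))
    rw [h5 j hj, h4.map_mod_nat] at h6
    beta_reduce at h6 ⊢
    rw [← h6, pow_succ', pow_succ', mul_s, mul_s, pow_π, pow_π, hlg j hj]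
    generalize g.s j = a
    generalize (g ^ lg j).s x = b
    generalize (g' ^ lg j).s x' = c
    generalize g'.s _ = d
    revert a b c d
    decide

theorem exists_fun (h : Stab T g.π) (h' : Stab T' g'.π) (e : wt g T = wt g' T') :
    ∃ (φ : Fin n → Fin n) (σ : Fin n → ℤˣ), Set.InjOn φ T ∧ ∀ j ∈ T, φ j ∈ T' ∧
      φ (g.π j) = g'.π (φ j) ∧ σ (g.π j) * g.s j * σ j = g'.s (φ j) := by
  induction T using Finset.strongInduction generalizing T' with
  | H T ih =>
    rcases T.eq_empty_or_nonempty with rfl | ⟨x, hx⟩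
    · exact ⟨id, 1, by simp, by simp⟩
    · have h1 : (#(cyc g.π x), ∏ j ∈ cyc g.π x, g.s j) ∈ wt g' T' := e ▸ Multiset.mem_map_of_mem _ hx
      obtain ⟨x', hx', h2⟩ := Multiset.mem_map.1 h1
      have h3 := cyc_subset h hx
      have h4 := cyc_subset h' hx'
      rw [wt_split h3, wt_split h4, h2, show #(cyc g'.π x') = #(cyc g.π x) from (Prod.ext_iff.1 h2).1, add_right_inj] at e
      obtain ⟨φ, σ, a1, a2⟩ := exists_cyc (Prod.ext_iff.1 h2).1.symm (Prod.ext_iff.1 h2).2.symm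
      obtain ⟨φ', σ', b1, b2⟩ := ih _ (sdiff_ssubset h3 ⟨x, self_mem _ _⟩) (stab_sdiff h (stab_cyc _ _))
        (stab_sdiff h' (stab_cyc _ _)) e
      refine ⟨fun y => if y ∈ cyc g.π x then φ y else φ' y, fun y => if y ∈ cyc g.π x then σ y else σ' y,
        fun a ha b hb e => ?_, fun j hj => ?_⟩
      · beta_reduce at e
        split_ifs at e with c1 c2 c2
        · exact a1 c1 c2 e
        · exact absurd (e ▸ (a2 a c1).1) (mem_sdiff.1 (b2 b (mem_sdiff.2 ⟨hb, c2⟩)).1).2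
        · exact absurd (e ▸ (a2 b c2).1) (mem_sdiff.1 (b2 a (mem_sdiff.2 ⟨ha, c1⟩)).1).2
        · exact b1 (mem_sdiff.2 ⟨ha, c1⟩) (mem_sdiff.2 ⟨hb, c2⟩) e
      · simp only [stab_cyc g.π x j]
        split_ifs with c
        · exact ⟨h4 (a2 j c).1, (a2 j c).2⟩
        · exact ⟨(mem_sdiff.1 (b2 j (mem_sdiff.2 ⟨hj, c⟩)).1).1, (b2 j (mem_sdiff.2 ⟨hj, c⟩)).2⟩

/-- an element supported on `T` from an injective map and signs -/
theorem exists_on {φ : Fin n → Fin n} (h1 : Set.InjOn φ T) (h2 : ∀ j ∈ T, φ j ∈ T) (σ : Fin n → ℤˣ) :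
    ∃ h ∈ On T, ∀ j ∈ T, h.π j = φ j ∧ h.s j = σ j := by
  have h3 : Injective fun j => if j ∈ T then φ j else j := fun a b e => by
    beta_reduce at e
    split_ifs at e with c1 c2 c2
    · exact h1 c1 c2 e
    · exact absurd (e ▸ h2 a c1) c2
    · exact absurd (e ▸ h2 b c2) c1
    · exact e
  exact ⟨⟨Equiv.ofBijective _ (Finite.injective_iff_bijective.1 h3), fun j => if j ∈ T then σ j else 1⟩,
    fun j hj => ⟨if_neg hj, if_neg hj⟩, fun j hj => ⟨if_pos hj, if_pos hj⟩⟩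

/-- the restriction to a stable set -/
theorem exists_res (h : Stab T g.π) : ∃ r ∈ On T, ∀ j ∈ T, r.π j = g.π j ∧ r.s j = g.s j :=
  exists_on g.π.injective.injOn (fun j hj => (h j).2 hj) g.s

theorem exists_conj (h : Stab T g.π) (h' : Stab T g'.π) (e : wt g T = wt g' T) :
    ∃ h ∈ On T, ∀ j ∈ T, (h * g * h⁻¹).π j = g'.π j ∧ (h * g * h⁻¹).s j = g'.s j := by
  obtain ⟨φ, σ, h1, h2⟩ := exists_fun h h' e
  obtain ⟨u, hu, h3⟩ := exists_on h1 (fun j hj => (h2 j hj).1) σ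
  refine ⟨u, hu, fun j hj => ?_⟩
  obtain ⟨y, rfl⟩ := u.π.surjective j
  have hy := (stab_on hu y).1 hj
  have hy' := (h y).2 hy
  rw [conj_π, conj_s, (h3 _ hy').1, (h3 _ hy').2, (h3 _ hy).1, (h3 _ hy).2]
  exact (h2 y hy).2

/-! ### elements of a given type -/

theorem exists_ty (h0 : ∀ c ∈ L, 0 < c.1) (h : #T = (L.map fun c => c.1).sum) : ∃ u ∈ On T, HasTy u T L := by
  induction L generalizing T with
  | nil => exact ⟨1, one_mem _, hasTy_nil.2 (card_eq_zero.1 h)⟩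
  | cons c L ih =>
    rw [List.map_cons, List.sum_cons] at h
    obtain ⟨A, hA, h1⟩ := exists_subset_card_eq (show c.1 ≤ #T by omega)
    obtain ⟨u, hu, h2⟩ := ih (T := T \ A) (fun d hd => h0 d (List.mem_cons_of_mem _ hd))
      (by have := card_sdiff_add_card_eq_card hA; omega)
    obtain ⟨x, hx⟩ : A.Nonempty := card_pos.1 (h1 ▸ h0 c List.mem_cons_self)
    obtain ⟨f, hf, h3⟩ := A.exists_cycleOn
    have h4 : ∀ j, j ∉ A → f j = j := fun j hj => Perm.notMem_support.1 fun e => hj (h3 e)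
    let a : SG n := ⟨f, fun j => if j = x then c.2 else 1⟩
    have ha : a ∈ On A := fun j hj => ⟨h4 j hj, if_neg fun e : j = x => hj (e ▸ hx)⟩
    have h5 : cyc f x = A := by
      ext y
      exact ⟨fun e => cyc_subset (stab_on ha) hx e, fun e => mem_cyc.2 (hf.2 hx e)⟩
    have h6 : ∀ j ∈ A, u.π j = j ∧ u.s j = 1 := fun j hj => hu j fun e => (mem_sdiff.1 e).2 hj
    have h7 : cyc (a * u).π x = A := (cyc_congr fun y hy => by rw [mul_π, Perm.mul_apply, (h6 y (h5 ▸ hy)).1]).trans h5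
    refine ⟨a * u, mul_mem (fun j hj => ha j fun e => hj (hA e)) fun j hj => hu j fun e => hj (mem_sdiff.1 e).1,
      hasTy_cons.2 ⟨x, hA hx, ?_⟩⟩
    rw [h7]
    refine ⟨hA, h1, ?_, hasTy_congr h2 fun j hj => ?_⟩
    · rw [prod_congr rfl fun j hj => show (a * u).s j = if j = x then c.2 else 1 by rw [mul_s, (h6 j hj).1, (h6 j hj).2, mul_one],
        prod_ite_eq', if_pos hx]
    · have h8 := ha _ (mem_sdiff.1 ((stab_on hu j).2 hj)).2
      rw [mul_π, mul_s, Perm.mul_apply, h8.1, h8.2, one_mul]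
      exact ⟨rfl, rfl⟩

theorem exists_mul (hT : Stab T g.π) (h0 : ∀ c ∈ L, 0 < c.1) (h : #T = (L.map fun c => c.1).sum) :
    ∃ u ∈ On T, HasTy (u * g) T L := by
  obtain ⟨u, hu, h1⟩ := exists_ty h0 h
  obtain ⟨r, hr, h2⟩ := exists_res hT
  refine ⟨u * r⁻¹, mul_mem hu (inv_mem hr), hasTy_congr h1 fun j hj => ?_⟩
  simp only [mul_π, mul_s, inv_π, inv_s, Perm.mul_apply, ← (h2 j hj).1, ← (h2 j hj).2, inv_self, mul_assoc,
    Int.units_mul_self, mul_one, and_self]

end Cfsg.Agent.LV.Cl.Cj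

namespace Cfsg.Agent.LV.Cl

open Cj

/-- **Conjugacy of signed permutations.** -/
theorem boxConj : BoxConj := fun T g hT =>
  ⟨fun _ h => of_hasTy h, fun _ h e => exists_conj hT h e,
    fun h hh => ⟨by simpa only [map_stab hh] using wt_conj h g T, fun _ e => by simpa only [map_stab hh] using hasTy_conj h e⟩,
    fun _ h0 h => exists_mul hT h0 h⟩

end Cfsg.Agent.LV.Cl
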