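import Cfsg.Agent.LV.Cl.Defs

/-!
# LV, classical groups: beta lists (helper75)

* `mem_pars` : `l ∈ pars k ↔ length 10, increasing, sum k + 45`; `nodup_pars`, `mem_bips`, `nodup_bips`, `swap_mem_bips`;
* `strictMono_tp`, `sum_tp`, `pars_complete`, `tp_inj`, `vac_tp`;
* `hk_mem`, `hk2_mem` : the hooks land in the lists of the smaller size; `FM_hk` : Murnaghan-Nakayama for the lists.
-/

set_option autoImplicit false
set_option linter.unusedSectionVars false
set_option linter.dupNamespace false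

namespace Cfsg.Agent.LV.Cl

open Equiv Finset Cfsg.Agent.H614

theorem par_realised : True := by
  have := @pars.eq_def
  have := @ins.eq_def
  have := @val.eq_def
  have := @HasTy.eq_def
  have := @Dual.eq_def
  have := @Dual2.eq_def
  have := @pars.eq_1
  have := @pars.eq_2
  have := @ins.eq_1
  have := @ins.eq_2
  have := @val.eq_1
  have := @val.eq_2
  have := @HasTy.eq_1
  have := @HasTy.eq_2
  have := @Dual.eq_1
  have := @Dual.eq_2
  have := @Dual2.eq_1
  have := @Dual2.eq_2
  trivial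

theorem nodup_eraseDups {α : Type*} [BEq α] [LawfulBEq α] : ∀ (k : ℕ) (l : List α), l.length ≤ k → l.eraseDups.Nodup
  | _, [], _ => List.nodup_nil
  | 0, _ :: _, h => absurd h (Nat.not_succ_le_zero _)
  | k + 1, a :: l, h => by
    rw [List.eraseDups_cons]
    exact List.nodup_cons.2 ⟨fun h1 => by simpa using (List.mem_filter.1 (List.mem_eraseDups.1 h1)).2,
      nodup_eraseDups k _ ((List.length_filter_le _ _).trans (Nat.le_of_succ_le_succ h))⟩

theorem nodup_pars : ∀ k, (pars k).Nodup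
  | 0 => List.nodup_singleton _
  | _ + 1 => nodup_eraseDups _ _ le_rfl

theorem ofFn_tp {l : List ℕ} (h : l.length = 10) : List.ofFn (tp l) = l :=
  List.ext_getElem (by rw [List.length_ofFn, h]) fun i h1 h2 => by
    rw [List.getElem_ofFn, tp, List.getD_eq_getElem _ _ h2]

theorem tp_ofFn (β : Fin 10 → ℕ) : tp (List.ofFn β) = β := funext fun i => by
  rw [tp, List.getD_eq_getElem _ _ (by rw [List.length_ofFn]; exact i.2), List.getElem_ofFn]

theorem strictMono_of {l : List ℕ} (h : l.length = 10) (h1 : l.Pairwise (· < ·)) : StrictMono (tp l) :=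
  fun _ _ hij => List.pairwise_ofFn.1 (ofFn_tp h ▸ h1 : (List.ofFn (tp l)).Pairwise (· < ·)) hij

theorem sum_of {l : List ℕ} (h : l.length = 10) : ∑ i, tp l i = l.sum := by rw [← List.sum_ofFn, ofFn_tp h]

theorem le_sum_of {l : List ℕ} (h : l.length = 10) (h1 : l.Pairwise (· < ·)) : 45 ≤ l.sum :=
  sum_of h ▸ sum_le_of_injective (strictMono_of h h1).injective

theorem sum_map_rep {x z : ℕ} : ∀ {l : List ℕ}, l.Nodup → x ∈ l → (l.map fun y => if y = x then z else y).sum + x = l.sum + z
  | [], _, h => absurd h List.not_mem_nil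
  | a :: l, h, hx => by
    rw [List.map_cons, List.sum_cons, List.sum_cons]
    split_ifs with e
    · have h1 : (l.map fun y => if y = x then z else y) = l.map id :=
        List.map_congr_left fun y hy => if_neg fun e' : y = x => (List.nodup_cons.1 h).1 (e ▸ e' ▸ hy)
      rw [h1, List.map_id]
      omega
    · have := sum_map_rep (z := z) (List.nodup_cons.1 h).2 ((List.mem_cons.1 hx).resolve_left (Ne.symm e))
      omega

theorem exists_gap {l : List ℕ} (h : l.length = 10) (h1 : l.Pairwise (· < ·)) (h2 : l.sum ≠ 45) :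
    ∃ x, x + 1 ∈ l ∧ x ∉ l := by
  by_contra! h3
  have h4 : ∀ d y, y + d ∈ l → y ∈ l := fun d => by
    induction d with
    | zero => exact fun _ h => h
    | succ d ih => exact fun y hy => ih y (h3 _ hy)
  have h5 : l.Nodup := h1.imp ne_of_lt
  have h6 : #l.toFinset = 10 := (List.toFinset_card_of_nodup h5).trans h
  have h7 : l.toFinset = range 10 := eq_of_subset_of_card_le (fun x hx => mem_range.2 (by
    have h8 : range (x + 1) ⊆ l.toFinset := fun y hy => List.mem_toFinset.2 (h4 (x - y) y (by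
      rw [Nat.add_sub_cancel' (Nat.le_of_lt_succ (mem_range.1 hy))]; exact List.mem_toFinset.1 hx))
    have h9 := card_le_card h8
    rw [card_range, h6] at h9
    exact h9)) (by rw [h6, card_range])
  have h8 := List.sum_toFinset id h5
  rw [h7, List.map_id] at h8
  exact h2 (h8.symm.trans (by decide))

theorem mem_ad {l l' : List ℕ} : l ∈ ad l' ↔ ∃ x ∈ l', x + 1 ∉ l' ∧ (l'.map fun y => if y = x then x + 1 else y) = l := by
  simp [ad, and_assoc]

theorem mem_pars : ∀ {k : ℕ} {l : List ℕ}, l ∈ pars k ↔ l.length = 10 ∧ l.Pairwise (· < ·) ∧ l.sum = k + 45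
  | 0, l => by
    rw [pars, List.mem_singleton]
    refine ⟨by rintro rfl; decide, fun ⟨h, h1, h2⟩ => ?_⟩
    have h3 : ∀ i : Fin 10, (i : ℕ) = tp l i := fun i =>
      (sum_eq_sum_iff_of_le fun i _ => strictMono_le (strictMono_of h h1) i).1
        ((by decide : ∑ i : Fin 10, (i : ℕ) = 0 + 45).trans ((sum_of h).trans h2).symm) i (mem_univ i)
    rw [← ofFn_tp h, ← funext h3]
    rfl
  | k + 1, l => by
    rw [pars, List.mem_eraseDups, List.mem_flatMap]
    constructor
    · rintro ⟨l', h, h1⟩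
      obtain ⟨h2, h3, h4⟩ := mem_pars.1 h
      obtain ⟨x, hx, h5, rfl⟩ := mem_ad.1 h1
      refine ⟨(List.length_map _).trans h2, List.pairwise_map.2 (h3.imp_of_mem fun {a b} _ hb hab => ?_), ?_⟩
      · have : b ≠ x + 1 := fun e => h5 (e ▸ hb)
        split_ifs <;> omega
      · have := sum_map_rep (z := x + 1) (h3.imp ne_of_lt) hx
        omega
    · rintro ⟨h, h1, h2⟩
      obtain ⟨x, hx, h3⟩ := exists_gap h h1 (by omega)
      refine ⟨l.map fun y => if y = x + 1 then x else y, mem_pars.2 ⟨(List.length_map _).trans h,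
        List.pairwise_map.2 (h1.imp_of_mem fun {a b} ha _ hab => ?_), ?_⟩, mem_ad.2 ⟨x, List.mem_map.2 ⟨_, hx, if_pos rfl⟩,
        fun h4 => ?_, ?_⟩⟩
      · have : a ≠ x := fun e => h3 (e ▸ ha)
        split_ifs <;> omega
      · have := sum_map_rep (z := x) (h1.imp ne_of_lt) hx
        omega
      · obtain ⟨y, -, hy⟩ := List.mem_map.1 h4
        split_ifs at hy <;> omega
      · rw [List.map_map]
        refine (List.map_congr_left (g := id) fun y hy => ?_).trans (List.map_id _)
        have : y ≠ x := fun e => h3 (e ▸ hy)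
        simp only [Function.comp, id]
        split_ifs <;> omega

variable {k : ℕ} {l : List ℕ}

theorem strictMono_tp (h : l ∈ pars k) : StrictMono (tp l) := strictMono_of (mem_pars.1 h).1 (mem_pars.1 h).2.1

theorem sum_tp (h : l ∈ pars k) : ∑ i, tp l i = k + ∑ i : Fin 10, (i : ℕ) :=
  (sum_of (mem_pars.1 h).1).trans (mem_pars.1 h).2.2

theorem pars_complete {β : Fin 10 → ℕ} (h : StrictMono β) (h1 : ∑ i, β i = k + 45) : ∃ l ∈ pars k, tp l = β :=
  ⟨List.ofFn β, mem_pars.2 ⟨List.length_ofFn, List.pairwise_ofFn.2 fun _ _ hij => h hij, List.sum_ofFn.trans h1⟩, tp_ofFn β⟩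

theorem tp_inj {k' : ℕ} {l' : List ℕ} (h : l ∈ pars k) (h' : l' ∈ pars k') (e : tp l = tp l') : l = l' := by
  rw [← ofFn_tp (mem_pars.1 h).1, e, ofFn_tp (mem_pars.1 h').1]

theorem pars_size {k' : ℕ} (h : l ∈ pars k) (h' : l ∈ pars k') : k = k' :=
  Nat.add_right_cancel ((mem_pars.1 h).2.2.symm.trans (mem_pars.1 h').2.2)

theorem vc_mem : vc ∈ pars 0 := List.mem_singleton.2 rfl

theorem vac_tp (h : l ∈ pars k) : vac (tp l) = if l = vc then 1 else 0 := by
  split_ifs with e
  · have h1 : tp vc = fun i : Fin 10 => (i : ℕ) := by decide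
    rw [e, vac_eq_pair, ← h1]
    exact pair_self_of_strictMono (strictMono_tp vc_mem)
  · refine vac_eq_zero_of_sum fun h1 => e ?_
    have h2 : k = 0 := by have := sum_tp h; omega
    exact List.mem_singleton.1 (h2 ▸ h : l ∈ pars 0)

theorem mem_bips {i : Bip} : i ∈ bips k ↔ ∃ a b, a + b = k ∧ i.1 ∈ pars a ∧ i.2 ∈ pars b := by
  simp only [bips, List.mem_flatMap, List.mem_map, List.mem_range]
  constructor
  · rintro ⟨a, h1, β, h2, γ, h3, rfl⟩
    exact ⟨a, k - a, by omega, h2, h3⟩
  · rintro ⟨a, b, rfl, h2, h3⟩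
    exact ⟨a, by omega, i.1, h2, i.2, by rwa [Nat.add_sub_cancel_left], rfl⟩

theorem swap_mem_bips {i : Bip} (h : i ∈ bips k) : (i.2, i.1) ∈ bips k :=
  let ⟨a, b, h1, h2, h3⟩ := mem_bips.1 h
  mem_bips.2 ⟨b, a, (add_comm b a).trans h1, h3, h2⟩

theorem bips_size {k' : ℕ} {i : Bip} (h : i ∈ bips k) (h' : i ∈ bips k') : k = k' := by
  obtain ⟨a, b, rfl, h2, h3⟩ := mem_bips.1 h
  obtain ⟨a', b', rfl, h4, h5⟩ := mem_bips.1 h'
  rw [pars_size h2 h4, pars_size h3 h5]

theorem bips_zero : bips 0 = [(vc, vc)] := rfl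

theorem nodup_bips (k : ℕ) : (bips k).Nodup := by
  refine List.nodup_flatMap.2 ⟨fun a _ => List.nodup_flatMap.2 ⟨fun β _ => (nodup_pars _).map fun _ _ e => (Prod.ext_iff.1 e).2,
    (nodup_pars a).imp fun {β γ} hne x h1 h2 => ?_⟩, List.nodup_range.imp fun {a b} hne x h1 h2 => ?_⟩
  · obtain ⟨_, -, rfl⟩ := List.mem_map.1 h1
    obtain ⟨_, -, e⟩ := List.mem_map.1 h2
    exact hne (Prod.ext_iff.1 e).1.symm
  · obtain ⟨β, h3, h4⟩ := List.mem_flatMap.1 h1
    obtain ⟨γ, h5, h6⟩ := List.mem_flatMap.1 h2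
    obtain ⟨_, -, rfl⟩ := List.mem_map.1 h4
    obtain ⟨_, -, e⟩ := List.mem_map.1 h6
    exact hne (pars_size h3 ((show γ = β from (Prod.ext_iff.1 e).1) ▸ h5))

/-! ### rim hooks -/

theorem ins_perm (y : ℕ) : ∀ l : List ℕ, (ins y l).Perm (y :: l)
  | [] => List.Perm.refl _
  | z :: l => by
    rw [ins]
    split_ifs
    · exact List.Perm.refl _
    · exact ((ins_perm y l).cons z).trans (List.Perm.swap _ _ _)

theorem pairwise_ins {y : ℕ} : ∀ {l : List ℕ}, l.Pairwise (· < ·) → y ∉ l → (ins y l).Pairwise (· < ·)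
  | [], _, _ => List.pairwise_singleton _ _
  | z :: l, h, hy => by
    rw [ins]
    have h1 : y ≠ z := fun e => hy (e ▸ List.mem_cons_self)
    obtain ⟨h2, h3⟩ := List.pairwise_cons.1 h
    split_ifs with h4
    · refine List.pairwise_cons.2 ⟨fun a ha => ?_, h⟩
      rcases List.mem_cons.1 ha with rfl | ha
      · omega
      · have := h2 a ha
        omega
    · refine List.pairwise_cons.2 ⟨fun a ha => ?_, pairwise_ins h3 fun h5 => hy (List.mem_cons_of_mem _ h5)⟩
      rcases List.mem_cons.1 ((ins_perm y l).subset ha) with rfl | ha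
      · omega
      · exact h2 a ha

theorem mem_hk {r : ℕ} {x : ℤ × List ℕ} : x ∈ hk r l ↔ ∃ y ∈ l, r ≤ y ∧ y - r ∉ l ∧
    (if (l.countP fun z => decide (y - r < z) && decide (z < y)) % 2 = 0 then 1 else -1, ins (y - r) (l.erase y)) = x := by
  simp [hk, and_assoc]

theorem hk_mem {r : ℕ} {x : ℤ × List ℕ} (h : l ∈ pars k) (hx : x ∈ hk r l) : r ≤ k ∧ x.2 ∈ pars (k - r) := by
  obtain ⟨h1, h2, h3⟩ := mem_pars.1 h
  obtain ⟨y, hy, h4, h5, rfl⟩ := mem_hk.1 hx
  have h6 : (ins (y - r) (l.erase y)).length = 10 := by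
    rw [(ins_perm _ _).length_eq, List.length_cons, List.length_erase_of_mem hy, h1]
  have h7 := pairwise_ins (h2.sublist (List.erase_sublist (a := y))) fun h8 => h5 (List.mem_of_mem_erase h8)
  have h8 := le_sum_of h6 h7
  have h9 := (ins_perm (y - r) (l.erase y)).sum_eq
  have h10 := (List.perm_cons_erase hy).sum_eq
  rw [List.sum_cons] at h9 h10
  exact ⟨by omega, mem_pars.2 ⟨h6, h7, by dsimp only; omega⟩⟩

theorem hk2_mem {r : ℕ} {e : ℤˣ} {i : Bip} {x : ℤ × Bip} (h : i ∈ bips k) (hx : x ∈ hk2 r e i) :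
    r ≤ k ∧ x.2 ∈ bips (k - r) := by
  obtain ⟨a, b, rfl, h2, h3⟩ := mem_bips.1 h
  rcases List.mem_append.1 hx with h4 | h4 <;> obtain ⟨y, hy, rfl⟩ := List.mem_map.1 h4
  · obtain ⟨h5, h6⟩ := hk_mem h2 hy
    exact ⟨by omega, mem_bips.2 ⟨a - r, b, by omega, h6, h3⟩⟩
  · obtain ⟨h5, h6⟩ := hk_mem h3 hy
    exact ⟨by omega, mem_bips.2 ⟨a, b - r, by omega, h2, h6⟩⟩

section alt

variable {Φ : (Fin 10 → ℕ) → ℤ}

theorem alt_adj (hΦ : Alt Φ) (p b : List ℕ) (x y : ℕ) (h : p.length + b.length = 8) :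
    Φ (tp (p ++ x :: y :: b)) = -Φ (tp (p ++ y :: x :: b)) := by
  rw [← hΦ.swap _ (i := ⟨p.length, by omega⟩) (j := ⟨p.length + 1, by omega⟩) (by simp)]
  refine congrArg Φ (funext fun k => ?_)
  rw [Function.comp_apply]
  by_cases h1 : k = ⟨p.length, by omega⟩
  · rw [h1, swap_apply_left]
    simp [tp]
  by_cases h2 : k = ⟨p.length + 1, by omega⟩
  · rw [h2, swap_apply_right]
    simp [tp]
  rw [swap_apply_of_ne_of_ne h1 h2]
  rw [Fin.ext_iff] at h1 h2
  simp only [tp, List.getD_eq_getElem?_getD, List.getElem?_append]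
  split_ifs with h3
  · rfl
  · obtain ⟨d, hd⟩ : ∃ d, (k : ℕ) - p.length = d + 2 := ⟨k - p.length - 2, by dsimp only at h1 h2; omega⟩
    rw [hd]
    rfl

theorem alt_move (hΦ : Alt Φ) (b : List ℕ) (y : ℕ) : ∀ a p : List ℕ, p.length + a.length + b.length = 9 →
    Φ (tp (p ++ (a ++ y :: b))) = (-1) ^ a.length * Φ (tp (p ++ y :: (a ++ b)))
  | [], p, _ => (one_mul _).symm
  | z :: a, p, h => by
    rw [List.length_cons] at h
    have h1 := alt_move hΦ b y a (p ++ [z]) (by rw [List.length_append, List.length_singleton]; omega)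
    simp only [List.append_assoc, List.cons_append, List.nil_append] at h1 ⊢
    rw [h1, alt_adj hΦ p (a ++ b) z y (by rw [List.length_append]; omega), List.length_cons, pow_succ]
    ring

theorem alt_ins (hΦ : Alt Φ) (b : List ℕ) (y : ℕ) (hb : ∀ z ∈ b, y ≤ z) : ∀ a p : List ℕ, a.Pairwise (· < ·) → y ∉ a →
    p.length + a.length + b.length = 9 →
    Φ (tp (p ++ (a ++ y :: b))) = (-1) ^ (a.countP fun z => decide (y < z)) * Φ (tp (p ++ ins y (a ++ b)))
  | [], p, _, _, _ => by
    cases b with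
    | nil => exact (one_mul _).symm
    | cons z b => rw [List.nil_append, List.nil_append, ins, if_pos (hb z List.mem_cons_self)]; exact (one_mul _).symm
  | z :: a, p, h, hy, h1 => by
    have h2 : y ≠ z := fun e => hy (e ▸ List.mem_cons_self)
    obtain ⟨h3, h4⟩ := List.pairwise_cons.1 h
    rw [List.cons_append (a := z) (as := a) (bs := b), ins]
    split_ifs with h5
    · rw [alt_move hΦ b y _ p h1, List.countP_eq_length.2]
      · rfl
      intro x hx
      rcases List.mem_cons.1 hx with rfl | hx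
      · exact decide_eq_true (by omega)
      · have := h3 x hx
        exact decide_eq_true (by omega)
    · rw [List.length_cons] at h1
      have h6 := alt_ins hΦ b y hb a (p ++ [z]) h4 (fun h7 => hy (List.mem_cons_of_mem _ h7))
        (by rw [List.length_append, List.length_singleton]; omega)
      simp only [List.append_assoc, List.cons_append, List.nil_append] at h6 ⊢
      rw [h6, List.countP_cons_of_neg (by simp; omega)]

theorem sum_map_filter {α : Type*} (p : α → Bool) (f : α → ℤ) :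
    ∀ l : List α, ((l.filter p).map f).sum = (l.map fun x => if p x then f x else 0).sum
  | [] => rfl
  | a :: l => by
    rw [List.filter_cons, List.map_cons, List.sum_cons, ← sum_map_filter p f l]
    split_ifs
    · rfl
    · exact (zero_add _).symm

theorem alt_hk (hΦ : Alt Φ) {r : ℕ} (hr : 0 < r) (h : l ∈ pars k) :
    ∑ j, (if r ≤ tp l j then Φ (dn (tp l) j r) else 0) = ((hk r l).map fun x => x.1 * Φ (tp x.2)).sum := by
  obtain ⟨h1, h2, -⟩ := mem_pars.1 h
  rw [hk, List.map_map, sum_map_filter]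
  have h0 : ∀ G : ℕ → ℤ, (l.map G).sum = ∑ j, G (tp l j) := fun G => by
    conv_lhs => rw [← ofFn_tp h1]
    rw [List.map_ofFn, List.sum_ofFn]
    rfl
  rw [h0]
  refine sum_congr rfl fun j _ => ?_
  have hj : (j : ℕ) < l.length := j.2.trans_eq h1.symm
  have hx : tp l j = l[(j : ℕ)] := List.getD_eq_getElem _ _ hj
  simp only [Function.comp_apply, Bool.and_eq_true, decide_eq_true_eq, Bool.not_eq_true', List.elem_eq_mem,
    decide_eq_false_iff_not]
  by_cases h3 : r ≤ tp l j
  swap
  · rw [if_neg h3, if_neg fun h4 => h3 h4.1]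
  rw [if_pos h3]
  by_cases h4 : tp l j - r ∈ l
  · rw [if_neg fun h5 => h5.2 h4]
    obtain ⟨i, hi⟩ := (List.mem_ofFn' (tp l) (tp l j - r)).1 (by rw [ofFn_tp h1]; exact h4)
    have h5 : i ≠ j := fun e => by rw [e] at hi; omega
    exact hΦ.eq_zero two_torsion_int h5 (by rw [dn_ne _ _ h5, dn_self, hi])
  rw [if_pos ⟨h3, h4⟩]
  obtain ⟨a, b, ha, hl⟩ : ∃ a b : List ℕ, a.length = j ∧ l = a ++ tp l j :: b :=
    ⟨l.take j, l.drop (j + 1), List.length_take_of_le hj.le, by rw [hx, ← List.drop_eq_getElem_cons, List.take_append_drop]⟩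
  have h5 : dn (tp l) j r = tp ([] ++ (a ++ (tp l j - r) :: b)) := funext fun i => by
    by_cases e : i = j
    · rw [e, dn_self]
      generalize tp l j - r = y
      simp [tp, ← ha]
    · rw [dn_ne _ _ e]
      generalize tp l j - r = y
      generalize tp l j = x at hl
      rw [Fin.ext_iff] at e
      simp only [hl, tp, List.getD_eq_getElem?_getD, List.getElem?_append, List.nil_append]
      split_ifs with h6
      · rfl
      · obtain ⟨d, hd⟩ : ∃ d, (i : ℕ) - a.length = d + 1 := ⟨i - a.length - 1, by omega⟩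
        rw [hd]
        rfl
  rw [h5]
  clear h5 hx h0 h
  generalize tp l j = x at hl h3 h4
  subst hl
  obtain ⟨h5, h6, h7⟩ := List.pairwise_append.1 h2
  have h8 : ∀ z ∈ a, z < x := fun z hz => h7 z hz x List.mem_cons_self
  have h9 := (List.pairwise_cons.1 h6).1
  rw [List.length_append, List.length_cons] at h1
  rw [alt_ins hΦ b _ (fun z hz => by have := h9 z hz; omega) a [] h5 (fun h => h4 (List.mem_append_left _ h))
    (by rw [List.length_nil]; omega), List.erase_append_right _ fun h => lt_irrefl _ (h8 x h), List.erase_cons_head,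
    List.countP_append, List.countP_cons_of_neg (by simp),
    (List.countP_eq_zero (l := b)).2 fun z hz => by have := h9 z hz; simp; omega, add_zero,
    List.countP_congr (l := a) (p := fun y => decide (x - r < y) && decide (y < x)) (q := fun y => decide (x - r < y))
      fun z hz => by simp [h8 z hz], neg_one_pow_eq_ite]
  simp only [Nat.even_iff, List.nil_append]

end alt

theorem FM_hk {r : ℕ} (hr : 0 < r) (s : Multiset ℕ) (h : l ∈ pars k) :
    FM (r ::ₘ s) (tp l) = ((hk r l).map fun x => x.1 * FM s (tp x.2)).sum :=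
  (FM_cons r s _).trans (alt_hk (FM_alt s) hr h)

end Cfsg.Agent.LV.Cl
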